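import Cfsg.Agent.H399.IF.Tools
import Cfsg.Agent.H631.TitsD.Data
import Cfsg.Agent.H235.TitsRow
import Cfsg.Agent.TitsK.PairInst

/-!
# S5719: the Tits group (helper289)

`E = O^{5'}(C(z)) ≤ A` if `z ∈ A` (`f(z) ≤ 4`), so `A` contains the 10 points collinear with `z`: `n ≤ 4 · 1755 / 10`.
Otherwise the stabilizer contains an involution `u` of the elementary abelian group `V` of order 32, and a subgroup of index
at most 4 of `V` contains a conjugate of `z` (the product of the five points is 1).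
-/

set_option autoImplicit false
set_option linter.unusedSectionVars false

namespace Cfsg.Agent.H289.IF

open MulAction Subgroup Cfsg.Agent.H209.Fxy
open Cfsg.Agent.H999.IFB (icl center_of orderOf_conj)
open Cfsg.Agent.H399.IF
open Cfsg.Agent.OddHalf.D7Tits.Defs (KT)

section kt

variable {T : Type*} [Group T] [Finite T] (K : KT T)

theorem comm_A {a b : T} (ha : a ∈ K.A) (hb : b ∈ K.A) : a * b = b * a := by
  have h1 := K.sq_A a ha
  have h2 := K.sq_A b hb
  have h3 := K.sq_A _ (K.A.mul_mem ha hb)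
  have e1 : a⁻¹ = a := inv_eq_of_mul_eq_one_left h1
  have e2 : b⁻¹ = b := inv_eq_of_mul_eq_one_left h2
  have e3 : (a * b)⁻¹ = a * b := inv_eq_of_mul_eq_one_left h3
  rw [mul_inv_rev, e1, e2] at e3
  exact e3.symm

theorem q_shift {k l : ZMod 5} {w : T} (hw : w * K.x = K.x * w) (h : K.q k = w * K.q l) :
    K.q (k + 1) = w * K.q (l + 1) := by
  rw [← K.q_x, ← K.q_x, h]
  have e : K.x⁻¹ * w = w * K.x⁻¹ := by
    rw [inv_mul_eq_iff_eq_mul, ← mul_assoc, ← hw, mul_assoc, mul_inv_cancel, mul_one]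
  calc K.x⁻¹ * (w * K.q l) * K.x = (K.x⁻¹ * w) * K.q l * K.x := by group
    _ = w * (K.x⁻¹ * K.q l * K.x) := by rw [e]; group

theorem q_shift' {k l : ZMod 5} {w : T} (hw : w * K.x = K.x * w) (h : K.q k = w * K.q l) (m : ℕ) :
    K.q (k + m) = w * K.q (l + m) := by
  induction m with
  | zero => simpa using h
  | succ m ih =>
    have h1 := q_shift K hw ih
    rw [Nat.cast_succ, ← add_assoc, ← add_assoc]
    exact h1

theorem q_shift5 {k l : ZMod 5} {w : T} (hw : w * K.x = K.x * w) (h : K.q k = w * K.q l) (m : ZMod 5) :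
    K.q (k + m) = w * K.q (l + m) := by
  have h1 := q_shift' K hw h m.val
  rwa [ZMod.natCast_zmod_val] at h1

theorem q_inj {k l : ZMod 5} (h : K.q k = K.q l) : k = l := by
  by_contra hne
  have h1 : ∀ m : ZMod 5, K.q m = K.q (m + (l - k)) := by
    intro m
    have h2 := q_shift5 K (k := k) (l := l) (w := 1) (by rw [one_mul, mul_one]) (by rw [one_mul, h]) (m - k)
    rw [one_mul] at h2
    have e1 : k + (m - k) = m := by ring
    have e2 : l + (m - k) = m + (l - k) := by ring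
    rw [e1, e2] at h2
    exact h2
  have h0 : l - k ≠ 0 := fun h0 => hne (sub_eq_zero.1 h0).symm
  have h3 : ∀ n : ℕ, ∀ m : ZMod 5, K.q m = K.q (m + n * (l - k)) := by
    intro n
    induction n with
    | zero => intro m; simp
    | succ n ih =>
      intro m
      rw [ih m, h1, Nat.cast_succ]
      congr 1
      ring
  obtain ⟨n, hn⟩ : ∃ n : ℕ, (n : ZMod 5) * (l - k) = 2 := by
    have h4 : ∀ δ : ZMod 5, δ ≠ 0 → ∃ n : ℕ, (n : ZMod 5) * δ = 2 := by
      intro δ hδ
      have h5 : ∀ δ : ZMod 5, δ ≠ 0 → ∃ n : Fin 5, ((n : ℕ) : ZMod 5) * δ = 2 := by decide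
      obtain ⟨n, hn⟩ := h5 δ hδ
      exact ⟨n, hn⟩
    exact h4 _ h0
  have h5 := h3 n 0
  rw [hn, zero_add] at h5
  have h6 := K.r2
  rw [← h5, K.r0] at h6
  exact K.z1 (mul_eq_left.1 h6)

theorem q_ne_z {k l : ZMod 5} (h : K.q k = K.z * K.q l) : False := by
  have hx : K.x * K.z = K.z * K.x := (K.mem_P _).1 (K.E_le_P K.x_E)
  have h1 := q_shift5 K hx.symm h (l - k)
  have e1 : k + (l - k) = l := by ring
  rw [e1] at h1
  rw [h1, ← mul_assoc, K.zz, one_mul] at h
  have h2 := q_inj K h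
  have h3 : ∀ k l : ZMod 5, k = l + (l - k) → l = k := by decide
  have h4 := h3 k l h2
  subst h4
  rw [sub_self, add_zero] at h1
  exact K.z1 (mul_eq_right.1 h1.symm)

end kt

section main

variable {T : Type*} [Group T] [Finite T] [IsSimpleGroup T] (K : KT T)

/-- `z ∈ A` is impossible -/
theorem not_z (hna : ∃ a b : T, a * b ≠ b * a) (hcz : (centralizer ({K.z} : Set T)).index ≤ 1755)
    {M : Subgroup T} {Γ : Subgroup (MulAut T)} (h : IF M Γ) (hz : K.z ∈ M) : False := by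
  classical
  have h2 : orderOf K.z = 2 := by
    have : Fact (Nat.Prime 2) := ⟨Nat.prime_two⟩
    exact orderOf_eq_prime (by rw [pow_two, K.zz]) K.z1
  have hf : ff M K.z < 5 := by
    by_contra hcon
    have h3 : 5 ^ 5 ≤ ff M K.z ^ 5 := Nat.pow_le_pow_left (not_lt.1 hcon) 5
    have h4 := five h hna hz h2
    omega
  have hE : K.E ≤ M := by
    refine K.E_le.trans ?_
    rw [closure_le]
    rintro p ⟨hp, hp5⟩
    exact mem_of_prime h hna hz h2 (p := 5) (by norm_num) hf ((K.mem_P p).1 hp) hp5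
  have hA : K.A ≤ M := (K.A_le_Q.trans K.Q_le_E).trans hE
  let φ : Bool × ZMod 5 → T := fun p => if p.1 then K.z * K.q p.2 else K.q p.2
  have hφ : Function.Injective φ := by
    rintro ⟨b, k⟩ ⟨c, l⟩ hbc
    rcases b with _ | _ <;> rcases c with _ | _
    · have h3 : K.q k = K.q l := hbc
      rw [q_inj K h3]
    · exact (q_ne_z K (show K.q k = K.z * K.q l from hbc)).elim
    · exact (q_ne_z K (show K.q l = K.z * K.q k from hbc.symm)).elim
    · have h3 : K.z * K.q k = K.z * K.q l := hbc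
      rw [q_inj K (mul_left_cancel h3)]
  have hk : 10 ≤ kk M K.z := by
    have h3 := le_kk M (t := K.z) (Finset.univ.image φ) (by
      intro s hs
      obtain ⟨⟨b, k⟩, -, rfl⟩ := Finset.mem_image.1 hs
      rcases b with _ | _
      · refine ⟨hA (K.q_A k), ?_⟩
        obtain ⟨g, hg⟩ := K.pt k
        exact isConj_iff.2 ⟨g⁻¹, by rw [inv_inv]; exact hg⟩
      · refine ⟨M.mul_mem hz (hA (K.q_A k)), ?_⟩
        obtain ⟨g, hg⟩ := K.pt' k
        exact isConj_iff.2 ⟨g⁻¹, by rw [inv_inv]; exact hg⟩)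
    rw [Finset.card_image_of_injective _ hφ, Finset.card_univ, Fintype.card_prod, Fintype.card_bool, ZMod.card] at h3
    exact h3
  have h3 := cnt h hna hz h2
  have h4 := h.big
  have h5 : M.index * 10 ≤ M.index * kk M K.z := Nat.mul_le_mul_left _ hk
  have h6 : ff M K.z * (centralizer ({K.z} : Set T)).index ≤ 4 * 1755 := Nat.mul_le_mul (by omega) hcz
  omega

/-- `A` contains no conjugate of `z` -/
theorem not_conj (hna : ∃ a b : T, a * b ≠ b * a) (hcz : (centralizer ({K.z} : Set T)).index ≤ 1755)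
    {M : Subgroup T} {Γ : Subgroup (MulAut T)} (h : IF M Γ) {g : T} (hg : g⁻¹ * K.z * g ∈ M) : False := by
  refine not_z K hna hcz (h.map (MulAut.conj g)) ?_
  rw [mem_map_e]
  rw [MulAut.conj_symm_apply]
  exact hg

end main

section second

variable {T : Type*} [Group T] [Finite T] (K : KT T)

/-- the subgroup `(M ∩ V) ⟨z⟩` -/
def D2 (M : Subgroup T) : Subgroup T where
  carrier := {a | a ∈ K.A ∧ (a ∈ M ∨ K.z * a ∈ M)}
  one_mem' := ⟨K.A.one_mem, Or.inl M.one_mem⟩
  mul_mem' := by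
    rintro a b ⟨ha, ha'⟩ ⟨hb, hb'⟩
    refine ⟨K.A.mul_mem ha hb, ?_⟩
    have hza := comm_A K K.z_A ha
    rcases ha' with h1 | h1 <;> rcases hb' with h2 | h2
    · exact Or.inl (M.mul_mem h1 h2)
    · right
      have e : K.z * (a * b) = a * (K.z * b) := by rw [← mul_assoc, hza, mul_assoc]
      rw [e]
      exact M.mul_mem h1 h2
    · right
      rw [← mul_assoc]
      exact M.mul_mem h1 h2
    · left
      have e : a * b = K.z * a * (K.z * b) := by
        calc a * b = K.z * K.z * a * b := by rw [K.zz, one_mul]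
          _ = K.z * (K.z * a) * b := by group
          _ = K.z * (a * K.z) * b := by rw [hza]
          _ = K.z * a * (K.z * b) := by group
      rw [e]
      exact M.mul_mem h1 h2
  inv_mem' := by
    rintro a ⟨ha, ha'⟩
    have e : a⁻¹ = a := inv_eq_of_mul_eq_one_left (K.sq_A a ha)
    rw [e]
    exact ⟨ha, ha'⟩

theorem mem_D2 {M : Subgroup T} {a : T} : a ∈ D2 K M ↔ a ∈ K.A ∧ (a ∈ M ∨ K.z * a ∈ M) := Iff.rfl

theorem card_mul_relIndex' (M B : Subgroup T) : Nat.card (M ⊓ B : Subgroup T) * M.relIndex B = Nat.card B := by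
  rw [Subgroup.relIndex, ← Subgroup.card_mul_index (M.subgroupOf B)]
  congr 1
  rw [← Subgroup.inf_subgroupOf_right, Nat.card_congr (Subgroup.subgroupOfEquivOfLe (inf_le_right : M ⊓ B ≤ B)).toEquiv]

/-- a subgroup of index at most 7 of `V` contains one of the 11 points -/
theorem exists_pt (M : Subgroup T) (h7 : M.relIndex K.A ≤ 7) (hz : K.z ∉ M) (hq : ∀ k, K.q k ∉ M)
    (hzq : ∀ k, K.z * K.q k ∉ M) : False := by
  have hle : M ⊓ K.A ≤ D2 K M := fun a ha => ⟨ha.2, Or.inl ha.1⟩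
  have hzD : K.z ∈ D2 K M := ⟨K.z_A, Or.inr (by rw [K.zz]; exact M.one_mem)⟩
  have hDA : D2 K M ≤ K.A := fun a ha => ha.1
  have hqD : ∀ k, K.q k ∉ D2 K M := fun k hk => by
    rcases hk.2 with h1 | h1
    · exact hq k h1
    · exact hzq k h1
  have hlt : M ⊓ K.A < D2 K M := lt_of_le_of_ne hle fun h1 => hz (by rw [← h1] at hzD; exact hzD.1)
  have h1 := card_mul_relIndex' M K.A
  have h2 := card_mul_relIndex' (D2 K M) K.A
  rw [inf_eq_left.2 hDA] at h2
  rw [K.card_A] at h1 h2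
  obtain ⟨m, hm⟩ := Subgroup.card_dvd_of_le hle
  have hm2 : 2 ≤ m := by
    rcases Nat.lt_or_ge m 2 with h3 | h3
    · exfalso
      have h4 : Nat.card (D2 K M) ≤ Nat.card (M ⊓ K.A : Subgroup T) := by
        rw [hm]
        have : m ≤ 1 := by omega
        calc _ ≤ Nat.card (M ⊓ K.A : Subgroup T) * 1 := Nat.mul_le_mul_left _ this
          _ = _ := mul_one _
      exact hlt.ne (Subgroup.eq_of_le_of_card_ge hle h4)
    · exact h3
  have h5 : M.relIndex K.A ∣ 2 ^ 5 := Dvd.intro_left _ h1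
  obtain ⟨a, ha, ha'⟩ := (Nat.dvd_prime_pow Nat.prime_two).1 h5
  have ha2 : a ≤ 2 := by
    by_contra hcon
    have : 2 ^ 3 ≤ 2 ^ a := Nat.pow_le_pow_right (by norm_num) (by omega)
    omega
  have h6 : 8 ≤ Nat.card (M ⊓ K.A : Subgroup T) := by
    have h7 : M.relIndex K.A ≤ 4 := by
      rw [ha']
      calc 2 ^ a ≤ 2 ^ 2 := Nat.pow_le_pow_right (by norm_num) ha2
        _ = 4 := by norm_num
    by_contra hcon
    have h8 : Nat.card (M ⊓ K.A : Subgroup T) * M.relIndex K.A ≤ 7 * 4 := Nat.mul_le_mul (by omega) h7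
    omega
  have h8 : 16 ≤ Nat.card (D2 K M) := by
    rw [hm]
    exact Nat.mul_le_mul h6 hm2
  have h9 : (D2 K M).relIndex K.A ≤ 2 := by
    by_contra hcon
    have : 16 * 3 ≤ Nat.card (D2 K M) * (D2 K M).relIndex K.A := Nat.mul_le_mul h8 (by omega)
    omega
  have h10 : (D2 K M).relIndex K.A ≠ 1 := by
    intro h11
    rw [Subgroup.relIndex_eq_one] at h11
    exact hqD 0 (h11 (K.q_A 0))
  have h12 : ((D2 K M).subgroupOf K.A).index = 2 := by
    have h13 : (D2 K M).relIndex K.A ≠ 0 := by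
      intro h14
      rw [h14] at h2
      omega
    show (D2 K M).relIndex K.A = 2
    omega
  have key : ∀ k l : ZMod 5, K.q k * K.q l ∈ D2 K M := by
    intro k l
    have h13 := Subgroup.mul_mem_iff_of_index_two h12 (a := ⟨K.q k, K.q_A k⟩) (b := ⟨K.q l, K.q_A l⟩)
    rw [Subgroup.mem_subgroupOf, Subgroup.mem_subgroupOf, Subgroup.mem_subgroupOf] at h13
    exact h13.2 (iff_of_false (hqD k) (hqD l))
  have h13 := (D2 K M).mul_mem (key 1 2) (key 3 4)
  have h14 : K.q 0 * (K.q 1 * K.q 2 * (K.q 3 * K.q 4)) = 1 := by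
    rw [← K.q_prod]
    group
  have h15 : K.q 0 = (K.q 1 * K.q 2 * (K.q 3 * K.q 4))⁻¹ := eq_inv_of_mul_eq_one_left h14
  exact hqD 0 (by rw [h15]; exact (D2 K M).inv_mem h13)

/-- `Q` moves `a ∈ V` to `a` or `a z` -/
theorem conj_or {a : T} (ha : a ∈ K.A) : ∀ u ∈ K.Q, u⁻¹ * a * u = a ∨ u⁻¹ * a * u = a * K.z := by
  have key : a ∈ K.A ∧ ∀ u ∈ K.Q, u⁻¹ * a * u = a ∨ u⁻¹ * a * u = a * K.z := by
    refine Subgroup.closure_induction (p := fun a _ => a ∈ K.A ∧ ∀ u ∈ K.Q, u⁻¹ * a * u = a ∨ u⁻¹ * a * u = a * K.z)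
      ?_ ?_ ?_ ?_ (K.A_gen ha)
    · rintro x (hx | ⟨k, rfl⟩)
      · rw [Set.mem_singleton_iff] at hx
        subst hx
        refine ⟨K.z_A, fun u hu => Or.inl ?_⟩
        have h1 := (K.mem_P u).1 (K.U_le_P (K.Q_le_U hu))
        rw [mul_assoc, ← h1, inv_mul_cancel_left]
      · exact ⟨K.q_A k, fun u hu => K.q_Q u hu k⟩
    · exact ⟨K.A.one_mem, fun u _ => Or.inl (by group)⟩
    · rintro x y - - ⟨hx, hx'⟩ ⟨hy, hy'⟩
      refine ⟨K.A.mul_mem hx hy, fun u hu => ?_⟩
      have e : u⁻¹ * (x * y) * u = (u⁻¹ * x * u) * (u⁻¹ * y * u) := by group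
      have hzy := comm_A K K.z_A hy
      rw [e]
      rcases hx' u hu with h1 | h1 <;> rcases hy' u hu with h2 | h2 <;> rw [h1, h2]
      · exact Or.inl rfl
      · exact Or.inr (mul_assoc _ _ _).symm
      · right
        rw [mul_assoc, hzy, mul_assoc]
      · left
        calc x * K.z * (y * K.z) = x * (K.z * y) * K.z := by group
          _ = x * y * (K.z * K.z) := by rw [hzy]; group
          _ = x * y := by rw [K.zz, mul_one]
    · rintro x - ⟨hx, hx'⟩
      have e : x⁻¹ = x := inv_eq_of_mul_eq_one_left (K.sq_A x hx)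
      rw [e]
      exact ⟨hx, hx'⟩
  exact key.2

/-- `2^8` divides `|C(a)|` -/
theorem dvd_cent {a : T} (ha : a ∈ K.A) : 2 ^ 8 ∣ Nat.card (centralizer ({a} : Set T)) := by
  have h1 := card_mul_relIndex' (centralizer ({a} : Set T)) K.Q
  rw [K.card_Q] at h1
  have h2 : (centralizer ({a} : Set T)).relIndex K.Q = 1 ∨ (centralizer ({a} : Set T)).relIndex K.Q = 2 := by
    by_cases hall : ∀ u ∈ K.Q, u⁻¹ * a * u = a
    · left
      rw [Subgroup.relIndex_eq_one]
      intro u hu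
      rw [mem_centralizer_singleton_iff]
      have h3 := hall u hu
      rw [mul_assoc, inv_mul_eq_iff_eq_mul] at h3
      exact h3.symm
    · right
      push Not at hall
      obtain ⟨w, hw, hw'⟩ := hall
      have h3 := (conj_or K ha w hw).resolve_left hw'
      show ((centralizer ({a} : Set T)).subgroupOf K.Q).index = 2
      rw [Subgroup.index_eq_two_iff]
      refine ⟨⟨w, hw⟩, fun b => ?_⟩
      have hmem : ∀ u ∈ K.Q, u ∈ centralizer ({a} : Set T) ↔ u⁻¹ * a * u = a := by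
        intro u _
        rw [mem_centralizer_singleton_iff, mul_assoc, inv_mul_eq_iff_eq_mul]
        exact ⟨fun h => h.symm, fun h => h.symm⟩
      rw [Subgroup.mem_subgroupOf, Subgroup.mem_subgroupOf, Subgroup.coe_mul, hmem _ (K.Q.mul_mem b.2 hw),
        hmem _ b.2]
      have e : ((b : T) * w)⁻¹ * a * (b * w) = w⁻¹ * ((b : T)⁻¹ * a * b) * w := by group
      have hzw : w⁻¹ * K.z * w = K.z := by
        have h4 := (K.mem_P w).1 (K.U_le_P (K.Q_le_U hw))
        rw [mul_assoc, ← h4, inv_mul_cancel_left]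
      rw [e]
      rcases conj_or K ha b b.2 with h4 | h4
      · right
        refine ⟨h4, ?_⟩
        rw [h4]
        exact hw'
      · left
        have hne : a * K.z ≠ a := fun h5 => K.z1 (mul_eq_left.1 h5)
        refine ⟨?_, by rw [h4]; exact hne⟩
        rw [h4]
        calc w⁻¹ * (a * K.z) * w = (w⁻¹ * a * w) * (w⁻¹ * K.z * w) := by group
          _ = a * K.z * K.z := by rw [h3, hzw]
          _ = a := by rw [mul_assoc, K.zz, mul_one]
  have h4 : 2 ^ 8 ∣ Nat.card (centralizer ({a} : Set T) ⊓ K.Q : Subgroup T) := by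
    rcases h2 with h2 | h2
    · rw [h2, mul_one] at h1
      rw [h1]
      exact ⟨2, by norm_num⟩
    · rw [h2] at h1
      have : Nat.card (centralizer ({a} : Set T) ⊓ K.Q : Subgroup T) = 2 ^ 8 := by omega
      rw [this]
  exact h4.trans (Subgroup.card_dvd_of_le inf_le_left)

end second

section fin

variable {T : Type*} [Group T] [Finite T] [IsSimpleGroup T] (K : KT T)

/-- no counterexample -/
theorem kill_abs (hna : ∃ a b : T, a * b ≠ b * a) (hcz : (centralizer ({K.z} : Set T)).index ≤ 1755)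
    (hin : ∀ σ : MulAut T, orderOf σ = 2 → ∃ g : T, σ = MulAut.conj g)
    (hinv : ∀ u : T, orderOf u = 2 → ∃ g : T, g⁻¹ * u * g ∈ K.A)
    (hcd : ∀ u : T, orderOf u = 2 → ¬ IsConj K.z u → (centralizer ({u} : Set T)).index < 8 ^ 5) : Kill T := by
  intro M Γ h
  obtain ⟨σ, hσ, ho, -⟩ := h.ex
  obtain ⟨u, rfl⟩ := hin σ ho
  have hu : u ∈ M := (h.conj u).1 hσ
  rw [orderOf_conj hna] at ho
  obtain ⟨g, hg⟩ := hinv u ho
  -- `z`-free
  have hfree : ∀ w : T, w ∈ M → ¬ IsConj K.z w := by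
    intro w hw hc
    obtain ⟨c, rfl⟩ := isConj_iff.1 hc
    refine not_conj K hna hcz h (g := c⁻¹) ?_
    rwa [inv_inv]
  have h5 := five h hna hu ho
  have h7 : ff M u ≤ 7 := by
    by_contra hcon
    have h8 : 8 ^ 5 ≤ ff M u ^ 5 := Nat.pow_le_pow_left (by omega) 5
    exact absurd (h8.trans_lt (h5.trans (hcd u ho (hfree u hu)))) (lt_irrefl _)
  -- `V^g`
  set B : Subgroup T := K.A.map (MulAut.conj g).toMonoidHom with hB
  have hBc : B ≤ centralizer ({u} : Set T) := by
    rintro _ ⟨b, hb, rfl⟩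
    rw [mem_centralizer_singleton_iff]
    show g * b * g⁻¹ * u = u * (g * b * g⁻¹)
    have h8 := comm_A K hb hg
    calc g * b * g⁻¹ * u = g * (b * (g⁻¹ * u * g)) * g⁻¹ := by group
      _ = g * (g⁻¹ * u * g * b) * g⁻¹ := by rw [h8]
      _ = u * (g * b * g⁻¹) := by group
  have h8 := (H399.IF.relIndex_le h hna hu ho hBc).trans h7
  have h9 : (M.map (MulAut.conj g⁻¹).toMonoidHom).relIndex K.A = M.relIndex B := by
    have e : (M.map (MulAut.conj g⁻¹).toMonoidHom).relIndex (B.map (MulAut.conj g⁻¹).toMonoidHom) = M.relIndex B :=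
      Subgroup.relIndex_map_map_of_injective _ _ (MulAut.conj g⁻¹).injective
    rw [← e, hB, Subgroup.map_map]
    congr 1
    have e2 : (MulAut.conj g⁻¹).toMonoidHom.comp (MulAut.conj g).toMonoidHom = MonoidHom.id T := by
      ext x
      show g⁻¹ * (g * x * g⁻¹) * g⁻¹⁻¹ = x
      group
    rw [e2, Subgroup.map_id]
  have hmem : ∀ w : T, w ∈ M.map (MulAut.conj g⁻¹).toMonoidHom → g * w * g⁻¹ ∈ M := by
    rintro _ ⟨y, hy, rfl⟩
    have e : g * (MulAut.conj g⁻¹).toMonoidHom y * g⁻¹ = y := by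
      show g * (g⁻¹ * y * g⁻¹⁻¹) * g⁻¹ = y
      group
    rw [e]
    exact hy
  have hnot : ∀ w : T, IsConj K.z w → w ∉ M.map (MulAut.conj g⁻¹).toMonoidHom := by
    intro w hc hw
    exact hfree _ (hmem w hw) (hc.trans (isConj_iff.2 ⟨g, rfl⟩))
  refine exists_pt K _ (by rw [h9]; exact h8) (hnot _ (IsConj.refl _)) (fun k => hnot _ ?_) (fun k => hnot _ ?_)
  · obtain ⟨c, hc⟩ := K.pt k
    exact isConj_iff.2 ⟨c⁻¹, by rw [inv_inv]; exact hc⟩
  · obtain ⟨c, hc⟩ := K.pt' k
    exact isConj_iff.2 ⟨c⁻¹, by rw [inv_inv]; exact hc⟩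

end fin

end Cfsg.Agent.H289.IF
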