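import Cfsg.Agent.H289.IF.Tits

/-!
# S5719: the row of the Tits group (helper289)
-/

set_option autoImplicit false
set_option linter.unusedSectionVars false

namespace Cfsg.Agent.H289.IF

open MulAction Subgroup Cfsg.Agent.H209.Fxy
open Cfsg.Agent.H399.IF
open Cfsg.Agent.OddHalf.D7Tits.Defs (KT)
open Cfsg.Agent.TitsK

section inner

variable {G : Type*} [Group G] [Finite G] (D : TData G)

/-- an involution of `H` is in `T` -/
theorem mem_of_sq {h : G} (hh : h ∈ D.H) (h2 : h * h = 1) : h ∈ D.T := by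
  have hp : IsPGroup 2 (zpowers h) := by
    have h1 : orderOf h ∣ 2 ^ 1 := orderOf_dvd_of_pow_eq_one (by rw [pow_one, pow_two, h2])
    obtain ⟨k, -, hk⟩ := (Nat.dvd_prime_pow Nat.prime_two).1 h1
    exact IsPGroup.of_card (n := k) (by rw [Nat.card_zpowers, hk])
  obtain ⟨k, hk, hkb⟩ := KAbs.exists_conj_le D.odd_U (B := zpowers h) (by rw [zpowers_le]; exact hh) hp
  have h3 := D.no_outer _ (hkb h (mem_zpowers h)) (by
    calc k⁻¹ * h * k * (k⁻¹ * h * k) = k⁻¹ * (h * h) * k := by group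
      _ = 1 := by rw [h2]; group)
  have h4 := D.T_conj k hk _ h3
  have e : k * (k⁻¹ * h * k) * k⁻¹ = h := by group
  rwa [e] at h4

/-- **every automorphism of order 2 is inner** -/
theorem inner_of_two (σ : MulAut ↥D.T) (ho : orderOf σ = 2) : ∃ g : ↥D.T, σ = MulAut.conj g := by
  obtain ⟨h, rfl⟩ := D.PhiT_surjective σ
  have h1 : D.PhiT (h * h) = 1 := by
    rw [map_mul, ← pow_two, ← ho, pow_orderOf_eq_one]
  have h2 : (h : G) * h = 1 := by
    refine D.cent_T (D.H.mul_mem h.2 h.2) fun t ht => ?_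
    have h3 := D.PhiT_apply (h * h) ⟨t, ht⟩
    rw [h1] at h3
    have h4 : t = (h : G) * h * t * ((h : G) * h)⁻¹ := h3
    rw [eq_mul_inv_iff_mul_eq] at h4
    exact h4.symm
  exact ⟨⟨h, mem_of_sq D h.2 h2⟩, D.PhiT_inn h (mem_of_sq D h.2 h2)⟩

variable (K : KT ↥D.T)

theorem kill_data [IsSimpleGroup ↥D.T] (hc : Nat.card ↥D.T = 17971200) (hKz : (K.z : G) = D.z)
    (three : ∀ g ∈ D.H, g ^ 3 = 1 → g * D.z * g⁻¹ = D.z → g = 1)
    (c3 : ∀ y : ↥D.T, orderOf y = 3 → Nat.card (centralizer ({y} : Set ↥D.T)) = 108)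
    (invol : ∀ a ∈ D.T, a * a = 1 → a ≠ 1 → (∃ t ∈ D.T, t * a * t⁻¹ = D.z) ∨ (∃ t ∈ D.T, t * a * t⁻¹ = D.d))
    (hd : ∃ g : ↥D.T, g⁻¹ * ⟨D.d, D.d_mem_T⟩ * g ∈ K.A) : Kill ↥D.T := by
  have f2 : Fact (Nat.Prime 2) := ⟨Nat.prime_two⟩
  have f3 : Fact (Nat.Prime 3) := ⟨Nat.prime_three⟩
  have hna : ∃ a b : ↥D.T, a * b ≠ b * a := by
    obtain ⟨t, ht, hne⟩ := D.z_not_central
    refine ⟨⟨t, ht⟩, K.z, fun h => hne ?_⟩
    have h1 : t * (K.z : G) = K.z * t := congrArg Subtype.val h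
    rw [hKz] at h1
    rw [h1, mul_inv_cancel_right]
  have hz' : K.z = ⟨D.z, H235.TitsRow.z_mem_T D⟩ := Subtype.ext hKz
  have hcz : (centralizer ({K.z} : Set ↥D.T)).index ≤ 1755 := by
    rw [hz']
    exact H235.TitsRow.index_CZ D hc three
  have cases : ∀ u : ↥D.T, orderOf u = 2 → IsConj K.z u ∨ IsConj (⟨D.d, D.d_mem_T⟩ : ↥D.T) u := by
    intro u hu
    have h1 : (u : G) * u = 1 := by
      have h2 : u * u = 1 := by rw [← pow_two, ← hu, pow_orderOf_eq_one]
      exact congrArg Subtype.val h2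
    have h2 : (u : G) ≠ 1 := by
      intro h3
      have h4 : u = 1 := Subtype.ext h3
      rw [h4, orderOf_one] at hu
      norm_num at hu
    rcases invol u u.2 h1 h2 with ⟨t, ht, h3⟩ | ⟨t, ht, h3⟩
    · left
      refine (isConj_iff.2 ⟨⟨t, ht⟩, ?_⟩ : IsConj u K.z).symm
      exact Subtype.ext (h3.trans hKz.symm)
    · right
      refine (isConj_iff.2 ⟨⟨t, ht⟩, ?_⟩ : IsConj u _).symm
      exact Subtype.ext h3
  have hinv : ∀ u : ↥D.T, orderOf u = 2 → ∃ g : ↥D.T, g⁻¹ * u * g ∈ K.A := by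
    intro u hu
    rcases cases u hu with h | h
    · obtain ⟨g, rfl⟩ := isConj_iff.1 h
      refine ⟨g, ?_⟩
      have e : g⁻¹ * (g * K.z * g⁻¹) * g = K.z := by group
      rw [e]
      exact K.z_A
    · obtain ⟨g, rfl⟩ := isConj_iff.1 h
      obtain ⟨k, hk⟩ := hd
      refine ⟨g * k, ?_⟩
      have e : ∀ w : ↥D.T, (g * k)⁻¹ * (g * w * g⁻¹) * (g * k) = k⁻¹ * w * k := fun w => by group
      rw [e]
      exact hk
  have hcard : ∀ {a b : ↥D.T}, IsConj a b →
      Nat.card (centralizer ({a} : Set ↥D.T)) = Nat.card (centralizer ({b} : Set ↥D.T)) := by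
    intro a b hab
    obtain ⟨g, rfl⟩ := isConj_iff.1 hab
    refine Nat.card_congr (Equiv.subtypeEquiv (MulAut.conj g).toEquiv fun x => ?_)
    rw [mem_centralizer_singleton_iff, mem_centralizer_singleton_iff]
    show x * a = a * x ↔ g * x * g⁻¹ * (g * a * g⁻¹) = g * a * g⁻¹ * (g * x * g⁻¹)
    have e1 : g * x * g⁻¹ * (g * a * g⁻¹) = g * (x * a) * g⁻¹ := by group
    have e2 : g * a * g⁻¹ * (g * x * g⁻¹) = g * (a * x) * g⁻¹ := by group
    rw [e1, e2]
    constructor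
    · intro h; rw [h]
    · intro h; exact mul_left_cancel (mul_right_cancel h)
  have hd3 : 3 ∣ Nat.card (centralizer ({(⟨D.d, D.d_mem_T⟩ : ↥D.T)} : Set ↥D.T)) := by
    obtain ⟨y, hy⟩ := exists_prime_orderOf_dvd_card' (G := ↥D.T) 3 (by rw [hc]; norm_num)
    obtain ⟨t, ht⟩ := exists_prime_orderOf_dvd_card' (G := centralizer ({y} : Set ↥D.T)) 2
      (by rw [c3 y hy]; norm_num)
    have ht' : orderOf (t : ↥D.T) = 2 := by rw [Subgroup.orderOf_coe, ht]
    have hty : (t : ↥D.T) * y = y * t := mem_centralizer_singleton_iff.1 t.2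
    have hdvd : 3 ∣ Nat.card (centralizer ({(t : ↥D.T)} : Set ↥D.T)) := by
      have h1 : zpowers y ≤ centralizer ({(t : ↥D.T)} : Set ↥D.T) := by
        rw [zpowers_le, mem_centralizer_singleton_iff]
        exact hty.symm
      have h2 := Subgroup.card_dvd_of_le h1
      rwa [Nat.card_zpowers, hy] at h2
    rcases cases t ht' with h | h
    · exfalso
      obtain ⟨g, hg⟩ := isConj_iff.1 h
      have h1 : g⁻¹ * y * g * K.z = K.z * (g⁻¹ * y * g) := by
        calc g⁻¹ * y * g * K.z = g⁻¹ * (y * (g * K.z * g⁻¹)) * g := by group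
          _ = g⁻¹ * ((g * K.z * g⁻¹) * y) * g := by rw [hg, hty]
          _ = K.z * (g⁻¹ * y * g) := by group
      have h2 : ((g⁻¹ * y * g : ↥D.T) : G) = 1 := by
        refine three _ (D.T_le (g⁻¹ * y * g : ↥D.T).2) ?_ ?_
        · have h3 : (g⁻¹ * y * g) ^ 3 = 1 := by
            have h4 : (g⁻¹ * y * g) ^ 3 = g⁻¹ * y ^ 3 * g := by
              have := conj_pow (a := g⁻¹) (b := y) (i := 3)
              rwa [inv_inv] at this
            rw [h4, ← hy, pow_orderOf_eq_one]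
            group
          exact congrArg Subtype.val h3
        · have h3 : ((g⁻¹ * y * g : ↥D.T) : G) * (K.z : G) = K.z * ((g⁻¹ * y * g : ↥D.T) : G) := congrArg Subtype.val h1
          rw [hKz] at h3
          rw [h3, mul_inv_cancel_right]
      have h3 : g⁻¹ * y * g = 1 := Subtype.ext h2
      have h4 : y = 1 := by
        calc y = g * (g⁻¹ * y * g) * g⁻¹ := by group
          _ = 1 := by rw [h3]; group
      rw [h4, orderOf_one] at hy
      norm_num at hy
    · rwa [← hcard h] at hdvd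
  refine kill_abs K hna hcz (inner_of_two D) hinv fun u hu hn => ?_
  have h1 := (cases u hu).resolve_left hn
  have h3 : 3 ∣ Nat.card (centralizer ({u} : Set ↥D.T)) := by rw [← hcard h1]; exact hd3
  have h2 : 2 ^ 8 ∣ Nat.card (centralizer ({u} : Set ↥D.T)) := by
    obtain ⟨g, hg⟩ := hinv u hu
    have h4 := dvd_cent K hg
    have h5 : IsConj u (g⁻¹ * u * g) := isConj_iff.2 ⟨g⁻¹, by rw [inv_inv]⟩
    rwa [← hcard h5] at h4
  have h768 : 2 ^ 8 * 3 ∣ Nat.card (centralizer ({u} : Set ↥D.T)) := Nat.Coprime.mul_dvd_of_dvd_of_dvd (by norm_num) h2 h3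
  have h5 := Nat.le_of_dvd Nat.card_pos h768
  have h6 := (centralizer ({u} : Set ↥D.T)).card_mul_index
  rw [hc] at h6
  by_contra hcon
  have h7 := Nat.mul_le_mul h5 (not_lt.1 hcon)
  omega

end inner

open Cfsg.Agent.FourTwo.Base (LL) in
theorem kill_TT : Kill ↥tdata.T := by
  have hfin : Finite LL := Cfsg.Agent.FourTwo.Perf.instFiniteLL
  have hfin' : Finite ↥TT := inferInstance
  have hT : Cfsg.Lie.IsoTits ↥TT := by
    obtain ⟨e⟩ := TitsK.exists_equiv
    exact ⟨e.symm⟩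
  have hD := H631.TitsD.td_of hT
  have hs : IsSimpleGroup ↥tdata.T := TitsK.simple_TT
  refine kill_data tdata ktTD hD.card coe_z_T (fun g hg h1 h2 => three_z hg h1 h2) hD.c3 H631.TitsD.lf.invol ?_
  obtain ⟨g, hg, h⟩ := A1T_conj (a := d) (mem_A1T.2 ⟨2129920, by decide, rfl⟩)
  exact ⟨⟨g, hg⟩, h⟩

theorem kill_of {X : Type} {Y : Type} [Group X] [Group Y] (h : Kill X) (e : Nonempty (Y ≃* X)) : Kill Y := by
  obtain ⟨e⟩ := e
  exact Kill.congr e.symm h

/-- **S5719, the Tits group.** -/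
theorem row_tits : Row fun T => Cfsg.Lie.IsoTits T := by
  rintro T _ _ _ - hT A Γ hA
  have h1 := kill_TT
  have h2 : Kill T := kill_of h1 (TitsK.nonempty_equiv hT)
  exact h2 A Γ hA

end Cfsg.Agent.H289.IF
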